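import Cfsg.Agent.H667.AvgKey

/-!
# S4868 given S4867 (helper667)

`Hyp43 G` : the strongly real irreducible characters of `G` of degree one or even have average degree less than `4/3`.
-/

set_option autoImplicit false
set_option linter.style.haveILetI false

namespace Cfsg.Agent.H667.Avg

open Cfsg
open scoped commutatorElement Pointwise
open Cfsg.Agent.H705.StrongLin (ind)
open Cfsg.Agent.H694 (Fix)

universe u

/-- The hypothesis of S4868. -/
def Hyp43 (G : Type u) [Group G] : Prop :=
  3 * (∑ᶠ χ : {χ : Cfsg.IrrCharacter G // (Cfsg.charDegree (χ : G → ℂ) = 1 ∨ 2 ∣ Cfsg.charDegree (χ : G → ℂ)) ∧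
    (Nat.card G : ℂ)⁻¹ * ∑ᶠ g : G, (χ : G → ℂ) (g * g) = 1}, Cfsg.charDegree (χ.1 : G → ℂ)) <
  4 * Nat.card {χ : Cfsg.IrrCharacter G // (Cfsg.charDegree (χ : G → ℂ) = 1 ∨ 2 ∣ Cfsg.charDegree (χ : G → ℂ)) ∧
    (Nat.card G : ℂ)⁻¹ * ∑ᶠ g : G, (χ : G → ℂ) (g * g) = 1}

/-- **S4868** from the solvability, the character criterion and the passage to quotients. -/
theorem normal_of (hsol : ∀ (G : Type u) [Group G] [Finite G], Hyp43 G → Group.IsSolvable G)
    (hchar : ∀ (G : Type u) [Group G] [Finite G] (X : G → ℂ), IsIrrCharacter G X → ind X = 1 → Even (charDegree X) →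
      Nat.card (Fix X) + 4 ≤ 3 * charDegree X → ¬ Hyp43 G)
    (hquot : ∀ (G : Type u) [Group G] [Finite G] (N : Subgroup G) [N.Normal], N ≤ commutator G → Hyp43 G →
      Hyp43 (G ⧸ N)) :
    ∀ (n : ℕ) (G : Type u) [Group G] [Finite G], Nat.card G = n → Hyp43 G → ∀ P : Sylow 2 G,
      (P : Subgroup G).Normal := by
  classical
  intro n
  induction n using Nat.strong_induction_on with
  | _ n ih =>
    intro G _ _ hn hG P
    have hs : Group.IsSolvable G := hsol G hG
    by_cases hcom : commutator G = ⊥
    · -- abelian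
      refine ⟨fun x hx g => ?_⟩
      have h1 : g * x * g⁻¹ = x := by
        have h2 : ⁅g, x⁆ ∈ commutator G := Subgroup.commutator_mem_commutator (Subgroup.mem_top g) (Subgroup.mem_top x)
        rw [hcom, Subgroup.mem_bot, commutatorElement_eq_one_iff_mul_comm] at h2
        rw [h2]; group
      rw [h1]; exact hx
    -- a minimal normal subgroup in the derived subgroup
    obtain ⟨N, ⟨hN1, hN2, hN3⟩, hmin⟩ := (Set.toFinite {N : Subgroup G | N ≤ commutator G ∧ N.Normal ∧
      N ≠ ⊥}).exists_minimal ⟨commutator G, le_rfl, inferInstance, hcom⟩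
    have hmin' : ∀ K : Subgroup G, K ≤ N → K.Normal → K ≠ ⊥ → K = N := fun K h1 h2 h3 =>
      le_antisymm h1 (hmin (y := K) ⟨h1.trans hN1, h2, h3⟩ h1)
    haveI := hN2
    -- `N` is abelian
    have hab : ∀ a ∈ N, ∀ b ∈ N, a * b = b * a := by
      have h1 : (⁅N, N⁆ : Subgroup G) = ⊥ := by
        by_contra h
        have h2 := hmin' ⁅N, N⁆ (Subgroup.commutator_le_self N) (Subgroup.commutator_normal N N) h
        have h3 : ∀ k, N ≤ derivedSeries G k := by
          intro k
          induction k with
          | zero => exact le_top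
          | succ k ih => rw [derivedSeries_succ, ← h2]; exact Subgroup.commutator_mono ih ih
        obtain ⟨k, hk⟩ := (Group.isSolvable_def G).1 hs
        exact hN3 (le_bot_iff.1 (hk ▸ h3 k))
      intro a ha b hb
      have h2 : ⁅a, b⁆ ∈ (⁅N, N⁆ : Subgroup G) := Subgroup.commutator_mem_commutator ha hb
      rw [h1, Subgroup.mem_bot, commutatorElement_eq_one_iff_mul_comm] at h2
      exact h2
    -- the quotient
    have hq : (P ⊔ N : Subgroup G).Normal := by
      have hlt : Nat.card (G ⧸ N) < n := by
        rw [← hn, ← Subgroup.card_mul_index N, Subgroup.index_eq_card]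
        have h1 : 1 < Nat.card N := by
          rw [Subgroup.one_lt_card_iff_ne_bot]; exact hN3
        have h2 : 0 < Nat.card (G ⧸ N) := Nat.card_pos
        exact lt_mul_of_one_lt_left h2 h1
      have h1 := ih _ hlt (G ⧸ N) rfl (hquot G N hN1 hG)
        (P.mapSurjective (QuotientGroup.mk'_surjective N))
      have h2 := h1.comap (QuotientGroup.mk' N)
      rw [Sylow.coe_mapSurjective, QuotientGroup.comap_map_mk', sup_comm] at h2
      exact h2
    by_cases h2 : 2 ∣ Nat.card N
    · -- `N` is a `2`-group
      let K : Subgroup G :=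
        { carrier := {x | x ∈ N ∧ x * x = 1}
          one_mem' := ⟨N.one_mem, one_mul 1⟩
          mul_mem' := by
            rintro a b ⟨ha, ha2⟩ ⟨hb, hb2⟩
            refine ⟨N.mul_mem ha hb, ?_⟩
            calc a * b * (a * b) = a * (b * a) * b := by group
              _ = a * (a * b) * b := by rw [hab b hb a ha]
              _ = (a * a) * (b * b) := by group
              _ = 1 := by rw [ha2, hb2, one_mul]
          inv_mem' := by
            rintro a ⟨ha, ha2⟩
            refine ⟨N.inv_mem ha, ?_⟩
            rw [← mul_inv_rev, ha2, inv_one] }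
      have hKN : K = N := by
        refine hmin' K (fun x hx => hx.1) ⟨fun x hx g => ⟨hN2.conj_mem x hx.1 g, ?_⟩⟩ ?_
        · calc g * x * g⁻¹ * (g * x * g⁻¹) = g * (x * x) * g⁻¹ := by group
            _ = 1 := by rw [hx.2]; group
        · intro hK
          obtain ⟨x, hx⟩ := exists_prime_orderOf_dvd_card' (G := N) (p := 2) h2
          have h3 : (x : G) ∈ K := by
            refine ⟨x.2, ?_⟩
            have h4 := pow_orderOf_eq_one x
            rw [hx, sq] at h4
            exact congrArg Subtype.val h4
          rw [hK, Subgroup.mem_bot] at h3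
          have h4 : x = 1 := Subtype.ext h3
          rw [h4, orderOf_one] at hx
          exact absurd hx (by norm_num)
      have hNp : IsPGroup 2 N := by
        intro x
        refine ⟨1, ?_⟩
        have h3 : (x : G) ∈ K := by rw [hKN]; exact x.2
        apply Subtype.ext
        rw [pow_one, sq]
        exact h3.2
      have h3 : N ≤ (P : Subgroup G) := by
        have h4 : IsPGroup 2 (N ⊔ P : Subgroup G) := hNp.to_sup_of_normal_left P.isPGroup'
        have h5 := P.is_maximal' h4 le_sup_right
        rw [← h5]; exact le_sup_left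
      rw [sup_eq_left.2 h3] at hq
      exact hq
    · -- `N` has odd order
      have hodd : Odd (Nat.card N) := Nat.not_even_iff_odd.1 fun h => h2 h.two_dvd
      set H : Subgroup G := Subgroup.normalizer ((P : Subgroup G) : Set G) with hH
      have hPH : (P : Subgroup G) ≤ H := Subgroup.le_normalizer
      have hsup : N ⊔ H = ⊤ := by
        have h3 := Sylow.normalizer_sup_eq_top' (N := (P ⊔ N : Subgroup G)) P le_sup_left
        rw [eq_top_iff, ← h3]
        refine sup_le le_sup_right (sup_le (hPH.trans le_sup_right) le_sup_left)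
      have hmem : ∀ g : G, ∃ a ∈ N, ∃ b ∈ H, a * b = g := by
        intro g
        have h3 : g ∈ N ⊔ H := by rw [hsup]; trivial
        rw [← SetLike.mem_coe, Subgroup.normal_mul] at h3
        obtain ⟨a, ha, b, hb, h⟩ := Set.mem_mul.1 h3
        exact ⟨a, ha, b, hb, h⟩
      have hnor : (N ⊓ H).Normal := by
        refine ⟨fun x hx g => ?_⟩
        obtain ⟨a, ha, b, hb, rfl⟩ := hmem g
        obtain ⟨hx1, hx2⟩ := Subgroup.mem_inf.1 hx
        have h3 : b * x * b⁻¹ ∈ N ⊓ H := Subgroup.mem_inf.2
          ⟨hN2.conj_mem x hx1 b, H.mul_mem (H.mul_mem hb hx2) (H.inv_mem hb)⟩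
        have h4 : a * b * x * (a * b)⁻¹ = a * (b * x * b⁻¹) * a⁻¹ := by group
        rw [h4, hab a ha _ (Subgroup.mem_inf.1 h3).1, mul_assoc, mul_inv_cancel, mul_one]
        exact h3
      by_cases hNH : N ⊓ H = ⊥
      · exfalso
        haveI := Fintype.ofFinite G
        haveI := Fintype.ofFinite N
        haveI := Fintype.ofFinite H
        obtain ⟨X, hX, hi, he, hf⟩ := AvgKey.key N H (P : Subgroup G) P.isPGroup' hab hodd hN3 (by
          intro m hm hfix
          have h3 : m ∈ N ⊓ H := by
            refine Subgroup.mem_inf.2 ⟨hm, ?_⟩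
            rw [hH, Subgroup.mem_normalizer_iff]
            intro g
            have h4 : ∀ g ∈ (P : Subgroup G), m * g * m⁻¹ = g := by
              intro g hg
              have h5 := hfix g hg
              rw [mul_inv_eq_iff_eq_mul] at h5
              rw [mul_inv_eq_iff_eq_mul]
              exact h5.symm
            constructor
            · intro hg
              rw [h4 g hg]; exact hg
            · intro hg
              have h5 := h4 _ hg
              have h6 : m * g * m⁻¹ = g := by
                have h7 : m * (m * g * m⁻¹) * m⁻¹ = m * g * m⁻¹ := h5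
                have h8 : m * g * m⁻¹ = m⁻¹ * (m * (m * g * m⁻¹) * m⁻¹) * m := by group
                rw [h8, h7]; group
              rwa [h6] at hg
          rwa [hNH, Subgroup.mem_bot] at h3) hsup hNH hN1
        refine hchar G X hX hi he ?_ hG
        obtain ⟨d, hd0, hd⟩ := Cfsg.Agent.Characters.Core.isIrr_apply_one hX
        have h5 : charDegree X = d := by
          rw [charDegree, hd, Complex.natCast_re, Nat.floor_natCast]
        obtain ⟨c, hc⟩ := he
        omega
      · have h3 := hmin' (N ⊓ H) inf_le_left hnor hNH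
        have h4 : N ≤ H := by rw [← h3]; exact inf_le_right
        have h5 : H = ⊤ := by rw [← hsup]; exact (sup_eq_right.2 h4).symm
        exact Subgroup.normalizer_eq_top_iff.1 (hH ▸ h5)

end Cfsg.Agent.H667.Avg
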