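import Cfsg.Agent.H667.AvgSum

/-!
# S4868 from S4867 (helper667)
-/

set_option autoImplicit false

namespace Cfsg.Agent.H667.Avg

open Cfsg

universe u

/-- **S4868** from S4867 -/
theorem s4868_of (h67 : ∀ (G : Type u) [Group G] [Finite G] (_ : (∑ᶠ χ : {χ : Cfsg.IrrCharacter G // (Cfsg.charDegree (χ : G → ℂ) = 1 ∨ 2 ∣ Cfsg.charDegree (χ : G → ℂ)) ∧ (Nat.card G : ℂ)⁻¹ * ∑ᶠ g : G, (χ : G → ℂ) (g * g) = 1}, Cfsg.charDegree (χ.1 : G → ℂ)) ≤ 2 * Nat.card {χ : Cfsg.IrrCharacter G // (Cfsg.charDegree (χ : G → ℂ) = 1 ∨ 2 ∣ Cfsg.charDegree (χ : G → ℂ)) ∧ (Nat.card G : ℂ)⁻¹ * ∑ᶠ g : G, (χ : G → ℂ) (g * g) = 1}), Group.IsSolvable G)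
    {G : Type u} [Group G] [Finite G] (h : 3 * (∑ᶠ χ : {χ : Cfsg.IrrCharacter G // (Cfsg.charDegree (χ : G → ℂ) = 1 ∨ 2 ∣ Cfsg.charDegree (χ : G → ℂ)) ∧ (Nat.card G : ℂ)⁻¹ * ∑ᶠ g : G, (χ : G → ℂ) (g * g) = 1}, Cfsg.charDegree (χ.1 : G → ℂ)) < 4 * Nat.card {χ : Cfsg.IrrCharacter G // (Cfsg.charDegree (χ : G → ℂ) = 1 ∨ 2 ∣ Cfsg.charDegree (χ : G → ℂ)) ∧ (Nat.card G : ℂ)⁻¹ * ∑ᶠ g : G, (χ : G → ℂ) (g * g) = 1}) (P : Sylow 2 G) : (P : Subgroup G).Normal := by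
  refine normal_of (fun G _ _ h => h67 G ?_) not_hyp hyp_quotient _ G rfl h P
  unfold Hyp43 at h
  omega

end Cfsg.Agent.H667.Avg
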