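import Cfsg.Agent.H694.Good
import Cfsg.Agent.Characters.CCBasic

/-!
# A real character of even degree with small stabiliser (for S4868, helper667)

`G = N H`, `N` an abelian normal subgroup of odd order, `N ∩ H = 1`, `N ≤ G'`, `P` a `2`-subgroup without fixed points
on `N \ {1}`: there is an irreducible character `X` of `G` of indicator `1` and even degree with at most `X(1)` real
linear characters `f` with `f X = X`.
-/

set_option autoImplicit false
set_option linter.unusedSectionVars false
set_option linter.style.haveILetI false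

namespace Cfsg.Agent.H667.AvgKey

open Cfsg Representation
open scoped ComplexConjugate Pointwise
open Cfsg.Agent.Characters.Core
open Cfsg.Agent.H705.StrongLin (ind ind_eq real_of_ind)
open Cfsg.Agent.H694 (RChar ind_cases real_of_ind_ne rchar_irr Fix finite_hom)

universe u

theorem deg_eq {K : Type*} [Group K] {χ : K → ℂ} (h : IsCharacter K χ) : χ 1 = (charDegree χ : ℂ) := by
  obtain ⟨n, hn⟩ := isCharacter_apply_one h
  rw [charDegree, hn, Complex.natCast_re, Nat.floor_natCast]

/-- natural numbers with sum one -/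
theorem exists_one {ι : Type*} [Fintype ι] {f : ι → ℕ} (h : ∑ i, f i = 1) : ∃ i, f i = 1 ∧ ∀ j, f j ≠ 0 → j = i := by
  classical
  obtain ⟨i, -, hi⟩ := Finset.exists_ne_zero_of_sum_ne_zero (by rw [h]; exact one_ne_zero : ∑ i, f i ≠ 0)
  have h1 := Finset.add_sum_erase Finset.univ f (Finset.mem_univ i)
  rw [h] at h1
  have h2 : f i = 1 ∧ ∑ x ∈ Finset.univ.erase i, f x = 0 := by omega
  refine ⟨i, h2.1, fun j hj => ?_⟩
  by_contra hne
  exact hj (Finset.sum_eq_zero_iff.1 h2.2 j (Finset.mem_erase.2 ⟨hne, Finset.mem_univ j⟩))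

/-- the multiplicities of a character -/
theorem exists_mult {K : Type u} [Group K] [Fintype K] [Fintype (IrrCharacter K)] {χ : K → ℂ} (h : IsCharacter K χ) :
    ∃ m : IrrCharacter K → ℕ, χ = ∑ ψ : IrrCharacter K, m ψ • (ψ : K → ℂ) ∧
      (∀ ψ : IrrCharacter K, classInner χ (ψ : K → ℂ) = m ψ) ∧
      charDegree χ = ∑ ψ : IrrCharacter K, m ψ * charDegree (ψ : K → ℂ) := by
  obtain ⟨m, hm⟩ := exists_nat_comb h
  refine ⟨m, hm, fun ψ => by rw [hm]; exact classInner_sum_nsmul_irr m ψ, ?_⟩
  have h1 := deg_eq h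
  have h2 := congrFun hm 1
  rw [Finset.sum_apply] at h2
  have h3 : ((charDegree χ : ℕ) : ℂ) = ((∑ ψ : IrrCharacter K, m ψ * charDegree (ψ : K → ℂ) : ℕ) : ℂ) := by
    rw [← h1, h2]
    push_cast
    refine Finset.sum_congr rfl fun ψ _ => ?_
    rw [Pi.smul_apply, deg_eq (isIrr_isCharacter ψ.2), nsmul_eq_mul]
  exact_mod_cast h3

section

variable {G : Type u} [Group G] [Fintype G] (N H : Subgroup G) [hN : N.Normal] [Fintype N] [Fintype H]

/-- the twist of a linear character of `N` -/
def tw (g : G) (l : N →* ℂˣ) : N →* ℂˣ := l.comp (MulAut.conjNormal g : MulAut N).toMonoidHom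

theorem tw_apply (g : G) (l : N →* ℂˣ) (n : N) : tw N g l n = l ⟨g * n * g⁻¹, hN.conj_mem n n.2 g⟩ := by
  rw [tw, MonoidHom.comp_apply]
  congr 1

/-- `1_H^G` restricted to `N` is the regular character. -/
theorem inner_perm (hsup : N ⊔ H = ⊤) (hinf : N ⊓ H = ⊥) (l : N →* ℂˣ) :
    classInner (fun n : N => indFun H (1 : H → ℂ) n) (fun n : N => (l n : ℂ)) = 1 := by
  classical
  have hcard : Nat.card N * Nat.card H = Nat.card G := by
    refine (Subgroup.isComplement'_of_disjoint_and_mul_eq_univ (disjoint_iff.2 hinf) ?_).card_mul_card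
    rw [← Subgroup.normal_mul, hsup, Subgroup.coe_top]
  have h1 : ∀ n : N, n ≠ 1 → indFun H (1 : H → ℂ) (n : G) = 0 := by
    intro n hn
    rw [indFun_apply]
    have : ∀ x : G, extendByZero H (1 : H → ℂ) (x⁻¹ * n * x) = 0 := by
      intro x
      apply extendByZero_of_notMem
      intro hx
      have h2 : x⁻¹ * n * x ∈ N := by
        have := hN.conj_mem n n.2 x⁻¹
        rwa [inv_inv] at this
      have h3 : x⁻¹ * (n : G) * x = 1 := by
        have : x⁻¹ * (n : G) * x ∈ N ⊓ H := Subgroup.mem_inf.2 ⟨h2, hx⟩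
        rwa [hinf, Subgroup.mem_bot] at this
      apply hn
      apply Subtype.ext
      rw [Subgroup.coe_one, ← h3]
      have : (n : G) = x * (x⁻¹ * n * x) * x⁻¹ := by group
      rw [h3] at this
      rw [h3, this]; group
    simp only [this, Finset.sum_const_zero, mul_zero]
  have h2 : indFun H (1 : H → ℂ) (1 : G) = (Nat.card N : ℂ) := by
    rw [indFun_apply]
    have : ∀ x : G, extendByZero H (1 : H → ℂ) (x⁻¹ * 1 * x) = 1 := by
      intro x
      have h3 : x⁻¹ * 1 * x = 1 := by group
      rw [h3, extendByZero_of_mem H _ H.one_mem]; rfl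
    rw [Finset.sum_congr rfl fun x _ => this x, Finset.sum_const, Finset.card_univ, nsmul_eq_mul, mul_one,
      ← Nat.card_eq_fintype_card, ← hcard]
    push_cast
    have h4 : (Nat.card H : ℂ) ≠ 0 := card_ne_zero_complex
    field_simp
  rw [classInner_def, Finset.sum_eq_single (1 : N)]
  · have h4 : (Nat.card N : ℂ) ≠ 0 := card_ne_zero_complex
    rw [Subgroup.coe_one, h2, map_one, Units.val_one, map_one, mul_one, inv_mul_cancel₀ h4]
  · intro n _ hn
    rw [h1 n hn, zero_mul]
  · intro h; exact absurd (Finset.mem_univ _) h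

/-- For every linear character `l` of `N` there is a unique irreducible constituent of `1_H^G` over `l`. -/
theorem exists_constituent [Fintype (IrrCharacter G)] (hsup : N ⊔ H = ⊤) (hinf : N ⊓ H = ⊥) :
    ∃ (m : IrrCharacter G → ℕ) (k : IrrCharacter G → (N →* ℂˣ) → ℕ),
      (∀ χ : IrrCharacter G, classInner (indFun H (1 : H → ℂ)) (χ : G → ℂ) = m χ) ∧
      (∀ (χ : IrrCharacter G) l, classInner (fun n : N => (χ : G → ℂ) n) (fun n => (l n : ℂ)) = k χ l) ∧
      ∀ l, ∃ χ, m χ = 1 ∧ k χ l = 1 ∧ ∀ χ', m χ' ≠ 0 → k χ' l ≠ 0 → χ' = χ := by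
  classical
  obtain ⟨m, hm, hm', -⟩ := exists_mult (Cfsg.Agent.OddOrderCharacters.PrimeTI.isCharacter_indFun H
    (isCharacter_one (G := H)))
  have hk : ∀ (χ : IrrCharacter G) (l : N →* ℂˣ),
      ∃ k : ℕ, classInner (fun n : N => (χ : G → ℂ) n) (fun n => (l n : ℂ)) = k := fun χ l =>
    classInner_isNat (isCharacter_comp N.subtype (isIrr_isCharacter χ.2))
      (Cfsg.Agent.Characters.Linear.isCharacter_hom l)
  choose k hk using hk
  refine ⟨m, k, hm', hk, fun l => ?_⟩
  have h1 := inner_perm N H hsup hinf l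
  have h2 : (fun n : N => indFun H (1 : H → ℂ) n) = ∑ χ : IrrCharacter G, (m χ : ℂ) • (fun n : N => (χ : G → ℂ) n) := by
    funext n
    rw [Finset.sum_apply]
    have h3 := congrFun hm (n : G)
    rw [Finset.sum_apply] at h3
    rw [h3]
    refine Finset.sum_congr rfl fun χ _ => ?_
    rw [Pi.smul_apply, Pi.smul_apply, nsmul_eq_mul, smul_eq_mul]
  rw [h2, classInner_sum_left] at h1
  simp only [classInner_smul_left, hk] at h1
  have h3 : ∑ χ : IrrCharacter G, m χ * k χ l = 1 := by exact_mod_cast h1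
  obtain ⟨χ, h4, h5⟩ := exists_one h3
  refine ⟨χ, Nat.eq_one_of_mul_eq_one_right h4, Nat.eq_one_of_mul_eq_one_left h4, fun χ' h6 h7 =>
    h5 χ' (Nat.mul_ne_zero h6 h7)⟩

/-- a linear character of `N` inverted by an element of `P` -/
theorem exists_inverted (P : Subgroup G) (hP : IsPGroup 2 P) (hab : ∀ a b : N, a * b = b * a)
    (hfix : ∀ n ∈ N, (∀ g ∈ P, g * n * g⁻¹ = n) → n = 1) (hne : N ≠ ⊥) :
    ∃ z ∈ P, ∃ l : N →* ℂˣ, l ≠ 1 ∧ tw N z l = l⁻¹ := by
  classical
  let φ : P →* MulAut N := (MulAut.conjNormal (H := N)).comp P.subtype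
  have hφ : ∀ (g : P) (n : N), ((φ g n : N) : G) = g * n * (g : G)⁻¹ := fun g n => rfl
  have hR : IsPGroup 2 φ.range := hP.of_surjective φ.rangeRestrict φ.rangeRestrict_surjective
  have hRne : φ.range ≠ ⊥ := by
    intro h
    apply hne
    rw [eq_bot_iff]
    intro n hn
    rw [Subgroup.mem_bot]
    refine hfix n hn fun g hg => ?_
    have h1 : φ ⟨g, hg⟩ = 1 := by
      have : φ ⟨g, hg⟩ ∈ φ.range := ⟨_, rfl⟩
      rwa [h, Subgroup.mem_bot] at this
    have h2 := hφ ⟨g, hg⟩ ⟨n, hn⟩
    rw [h1] at h2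
    exact h2.symm
  have hRd : 2 ∣ Nat.card φ.range := by
    haveI : Nontrivial φ.range := (Subgroup.nontrivial_iff_ne_bot _).2 hRne
    obtain ⟨k, hk⟩ := IsPGroup.iff_card.1 hR
    rw [hk]
    refine dvd_pow_self 2 ?_
    rintro rfl
    rw [pow_zero, Nat.card_eq_one_iff_unique] at hk
    exact not_subsingleton _ hk.1
  obtain ⟨⟨α, z, hz⟩, hα⟩ := exists_prime_orderOf_dvd_card' (p := 2) hRd
  have hα2 : α * α = 1 := by
    have h1 := pow_orderOf_eq_one (⟨α, z, hz⟩ : φ.range)
    rw [hα, sq] at h1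
    exact congrArg Subtype.val h1
  have hα1 : α ≠ 1 := by
    rintro rfl
    have h1 : (⟨1, z, hz⟩ : φ.range) = 1 := rfl
    rw [h1, orderOf_one] at hα
    exact absurd hα (by norm_num)
  obtain ⟨n, hn⟩ : ∃ n, α n ≠ n := by
    by_contra h
    push Not at h
    exact hα1 (MulEquiv.ext h)
  letI : CommGroup N := { (inferInstance : Group N) with mul_comm := hab }
  obtain ⟨μ, hμ⟩ := CommGroup.exists_apply_ne_one_of_hasEnoughRootsOfUnity N ℂ (a := n * (α n)⁻¹) (by
    intro h
    exact hn (mul_inv_eq_one.1 h).symm)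
  refine ⟨z, z.2, μ * (μ.comp α.toMonoidHom)⁻¹, ?_, ?_⟩
  · intro h
    have h1 := DFunLike.congr_fun h n
    apply hμ
    rw [map_mul, map_inv]
    exact h1
  · have h1 : ∀ x : N, (⟨(z : G) * x * (z : G)⁻¹, hN.conj_mem x x.2 z⟩ : N) = α x := by
      intro x
      apply Subtype.ext
      rw [← hz]; rfl
    ext x
    rw [tw_apply, h1]
    have h2 : α (α x) = x := DFunLike.congr_fun hα2 x
    change ((μ (α x) * (μ (α (α x)))⁻¹ : ℂˣ) : ℂ) = (((μ x * (μ (α x))⁻¹)⁻¹ : ℂˣ) : ℂ)
    rw [h2, mul_inv, inv_inv, mul_comm]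

/-- The multiplicity of a linear character in the restriction of a class function is invariant under twists. -/
theorem inner_tw {χ : G → ℂ} (hχ : IsClassFunction G χ) (g : G) (l : N →* ℂˣ) :
    classInner (fun n : N => χ n) (fun n => (tw N g l n : ℂ)) = classInner (fun n : N => χ n) (fun n => (l n : ℂ)) := by
  rw [classInner_def, classInner_def]
  congr 1
  refine Fintype.sum_equiv (MulAut.conjNormal g : MulAut N).toEquiv _ _ fun n => ?_
  have h1 : (((MulAut.conjNormal g : MulAut N).toEquiv n : N) : G) = g * n * g⁻¹ := rfl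
  rw [h1, hχ, tw_apply]
  rfl

/-- A linear character of `N` fixed by `P` is trivial. -/
theorem eq_one_of_fixed (P : Subgroup G) (hP : IsPGroup 2 P) (hab : ∀ a b : N, a * b = b * a) (hodd : Odd (Nat.card N))
    (hfix : ∀ n ∈ N, (∀ g ∈ P, g * n * g⁻¹ = n) → n = 1) {l : N →* ℂˣ} (hl : ∀ g ∈ P, tw N g l = l) : l = 1 := by
  classical
  haveI := Fintype.ofFinite P
  letI : CommGroup N := { (inferInstance : Group N) with mul_comm := hab }
  ext n
  rw [MonoidHom.one_apply]
  -- the norm of `n`
  let ν : N := ∏ g : P, (MulAut.conjNormal (g : G) : MulAut N) n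
  have h1 : ν = 1 := by
    apply Subtype.ext
    refine hfix ν ν.2 fun g hg => ?_
    have h2 : (MulAut.conjNormal (g : G) : MulAut N) ν = ν := by
      rw [map_prod]
      refine Fintype.prod_equiv (Equiv.mulLeft (⟨g, hg⟩ : P)) _ _ fun x => ?_
      rw [Equiv.coe_mulLeft, Subgroup.coe_mul, map_mul, MulAut.mul_apply]
    exact congrArg Subtype.val h2
  have h2 : l ν = (l n) ^ Fintype.card P := by
    rw [map_prod]
    have : ∀ g : P, l ((MulAut.conjNormal (g : G) : MulAut N) n) = l n := fun g =>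
      DFunLike.congr_fun (hl g g.2) n
    rw [Finset.prod_congr rfl fun g _ => this g, Finset.prod_const, Finset.card_univ]
  rw [h1, map_one] at h2
  obtain ⟨k, hk⟩ := IsPGroup.iff_card.1 hP
  rw [← Nat.card_eq_fintype_card, hk] at h2
  have h3 : orderOf (l n) ∣ 2 ^ k := orderOf_dvd_of_pow_eq_one h2.symm
  have h4 : orderOf (l n) ∣ Nat.card N := (orderOf_map_dvd l n).trans (orderOf_dvd_natCard n)
  have h5 : orderOf (l n) = 1 := by
    refine Nat.eq_one_of_dvd_coprimes ?_ h3 h4
    exact Nat.Coprime.pow_left k (Nat.coprime_two_left.2 hodd)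
  rw [orderOf_eq_one_iff.1 h5]

open Cfsg.Agent.H694 (cj)

/-- **The key lemma.** -/
theorem key (P : Subgroup G) (hP : IsPGroup 2 P) (hab : ∀ a ∈ N, ∀ b ∈ N, a * b = b * a) (hodd : Odd (Nat.card N))
    (hne : N ≠ ⊥) (hfix : ∀ n ∈ N, (∀ g ∈ P, g * n * g⁻¹ = n) → n = 1) (hsup : N ⊔ H = ⊤) (hinf : N ⊓ H = ⊥)
    (hcomm : N ≤ commutator G) :
    ∃ X : G → ℂ, IsIrrCharacter G X ∧ ind X = 1 ∧ Even (charDegree X) ∧ Nat.card (Fix X) ≤ charDegree X := by
  classical
  haveI := @Fintype.ofFinite (IrrCharacter G) finite_irr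
  haveI := @Fintype.ofFinite (IrrCharacter N) finite_irr
  haveI := @Fintype.ofFinite (IrrCharacter H) finite_irr
  have hab' : ∀ a b : N, a * b = b * a := fun a b => Subtype.ext (hab a a.2 b b.2)
  obtain ⟨z, hz, l, hl1, hzl⟩ := exists_inverted N P hP hab' hfix hne
  obtain ⟨m, k, hm, hk, hu⟩ := exists_constituent N H hsup hinf
  obtain ⟨X, hX1, hX2, hXu⟩ := hu l
  have hXc : IsClassFunction G (X : G → ℂ) := isIrr_isClassFunction X.2
  have hπ : RChar (indFun H (1 : H → ℂ)) := by
    have h1 : ind (1 : H → ℂ) = 1 := by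
      rw [ind_eq]
      simp only [Pi.one_apply, Finset.sum_const, Finset.card_univ, nsmul_eq_mul, mul_one]
      rw [← Nat.card_eq_fintype_card]
      exact inv_mul_cancel₀ card_ne_zero_complex
    exact (rchar_irr isIrr_one h1).indFun H
  have hktw : ∀ g f, k X (tw N g f) = k X f := by
    intro g f
    have h1 := inner_tw N hXc g f
    rw [hk, hk] at h1
    exact_mod_cast h1
  -- `X` is real
  have hcj : cj X = X := by
    refine hXu (cj X) ?_ ?_
    · have h1 : classInner (indFun H (1 : H → ℂ)) (cj X : G → ℂ) = m X := by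
        rw [← hm X]; exact hπ.inner_conj X.2
      rw [hm] at h1
      have h2 : m (cj X) = m X := by exact_mod_cast h1
      rw [h2, hX1]; exact one_ne_zero
    · have h1 : classInner (fun n : N => (cj X : G → ℂ) n) (fun n => (l n : ℂ)) =
          conj (classInner (fun n : N => (X : G → ℂ) n) (fun n => ((l⁻¹) n : ℂ))) := by
        rw [← Cfsg.Agent.H694.classInner_conj_conj]
        congr 1
        funext n
        have h2 : ‖(l n : ℂ)‖ = 1 := Cfsg.Agent.Characters.Linear.norm_hom_apply l n
        rw [MonoidHom.inv_apply, Units.val_inv_eq_inv_val, Complex.inv_def, map_mul, Complex.conj_conj]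
        have h3 : Complex.normSq (l n : ℂ) = 1 := by rw [Complex.normSq_eq_norm_sq, h2, one_pow]
        rw [h3]; simp
      rw [hk, hk, ← hzl, hktw, hX2] at h1
      have h2 : (k (cj X) l : ℂ) = 1 := by rw [h1]; simp
      have h3 : k (cj X) l = 1 := by exact_mod_cast h2
      rw [h3]; exact one_ne_zero
  have hreal : ∀ g, ((X : G → ℂ) g).im = 0 := by
    intro g
    rw [← Complex.conj_eq_iff_im]
    exact congrFun (congrArg Subtype.val hcj) g
  have hind : ind (X : G → ℂ) = 1 := by
    rcases ind_cases X.2 with h | h | h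
    · obtain ⟨g, hg⟩ := (Cfsg.Agent.H694.ind_eq_zero_iff X.2).1 h
      exact absurd (hreal g) hg
    · exact h
    · obtain ⟨n, hn⟩ := hπ.even X X.2 h
      rw [hm, hX1] at hn
      have : (1 : ℤ) = 2 * n := by exact_mod_cast hn
      omega
  -- the trivial character of `N` is not in `X`
  have hk1 : k X 1 = 0 := by
    by_contra h
    let T : IrrCharacter G := ⟨1, isIrr_one⟩
    obtain ⟨χ, -, -, hχ⟩ := hu 1
    have hT1 : m T = 1 := by
      have h1 : classInner (indFun H (1 : H → ℂ)) (T : G → ℂ) = 1 := by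
        rw [Cfsg.Agent.OddOrderCharacters.Clifford.classInner_indFun H _ _ (isIrr_isClassFunction isIrr_one)]
        exact classInner_irr_self isIrr_one
      rw [hm] at h1
      exact_mod_cast h1
    have hT2 : k T 1 = 1 := by
      have h1 : classInner (fun n : N => (T : G → ℂ) n) (fun n => (((1 : N →* ℂˣ) n : ℂˣ) : ℂ)) = 1 :=
        classInner_irr_self isIrr_one
      rw [hk] at h1
      exact_mod_cast h1
    have h1 : X = T := (hχ X (by rw [hX1]; exact one_ne_zero) h).trans
      (hχ T (by rw [hT1]; exact one_ne_zero) (by rw [hT2]; exact one_ne_zero)).symm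
    have h2 : classInner (fun n : N => (T : G → ℂ) n) (fun n => (l n : ℂ)) = 0 := by
      refine classInner_irr_ne (isIrr_one (G := N)) (Cfsg.Agent.Characters.Linear.isIrrCharacter_hom l) ?_
      intro h3
      apply hl1
      ext n
      rw [← congrFun h3 n]; rfl
    rw [hk, ← h1, hX2] at h2
    norm_num at h2
  refine ⟨X, X.2, hind, ?_, ?_⟩
  · -- even degree
    obtain ⟨mN, -, hmN, hdN⟩ := exists_mult (isCharacter_comp N.subtype (isIrr_isCharacter X.2))
    have hd : charDegree (X : G → ℂ) = Nat.card {f : N →* ℂˣ // k X f ≠ 0} := by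
      have h1 : charDegree (X : G → ℂ) = charDegree (fun n : N => (X : G → ℂ) n) := rfl
      have h2 : ∀ θ : IrrCharacter N, ∃ f : N →* ℂˣ, (θ : N → ℂ) = fun a => (f a : ℂ) := fun θ =>
        Cfsg.Agent.Characters.CCBasic.exists_hom_of_comm hab' θ.2
      choose φ hφ using h2
      have h3 : ∀ θ, mN θ = k X (φ θ) := by
        intro θ
        have h4 := hmN θ
        rw [hφ θ] at h4
        have h5 := hk X (φ θ)
        have h6 : ((mN θ : ℕ) : ℂ) = k X (φ θ) := h4.symm.trans h5
        exact_mod_cast h6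
      have h4 : ∀ f, k X f ≠ 0 → k X f = 1 := by
        intro f hf
        obtain ⟨χ, -, h5, h6⟩ := hu f
        rw [h6 X (by rw [hX1]; exact one_ne_zero) hf]
        exact h5
      have h5 : ∀ θ : IrrCharacter N, charDegree (θ : N → ℂ) = 1 := by
        intro θ
        have h6 := deg_eq (isIrr_isCharacter θ.2)
        have h7 : (θ : N → ℂ) 1 = 1 := by rw [hφ θ]; simp
        rw [h7] at h6
        exact_mod_cast h6.symm
      have h6 : (charDegree (fun n : N => (X : G → ℂ) n)) = ∑ θ : IrrCharacter N, if k X (φ θ) ≠ 0 then 1 else 0 := by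
        have h7 : charDegree (fun n : N => (X : G → ℂ) n) = ∑ ψ : IrrCharacter N, mN ψ * charDegree (ψ : N → ℂ) := hdN
        rw [h7]
        refine Finset.sum_congr rfl fun θ _ => ?_
        rw [h3, h5, mul_one]
        split_ifs with h8
        · exact h4 _ h8
        · exact not_not.1 h8
      rw [h1, h6, Finset.sum_boole, Nat.cast_id]
      have h7 : Function.Bijective (fun θ : {θ : IrrCharacter N // k X (φ θ) ≠ 0} =>
          (⟨φ θ, θ.2⟩ : {f : N →* ℂˣ // k X f ≠ 0})) := by
        constructor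
        · intro θ θ' h
          apply Subtype.ext
          apply Subtype.ext
          have h8 : φ θ = φ θ' := congrArg Subtype.val h
          rw [hφ θ, hφ θ', h8]
        · rintro ⟨f, hf⟩
          let θ : IrrCharacter N := ⟨fun a => (f a : ℂ), Cfsg.Agent.Characters.Linear.isIrrCharacter_hom f⟩
          have h8 : φ θ = f := by
            ext a
            exact (congrFun (hφ θ) a).symm
          exact ⟨⟨θ, by rw [h8]; exact hf⟩, Subtype.ext h8⟩
      rw [← Nat.card_eq_of_bijective _ h7, Nat.card_eq_fintype_card, Fintype.card_subtype]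
    have hfin : Finite (N →* ℂˣ) := finite_hom N
    rw [hd]
    letI act : MulAction P {f : N →* ℂˣ // k X f ≠ 0} :=
      { smul := fun g f => ⟨tw N (g : G)⁻¹ f, by rw [hktw]; exact f.2⟩
        one_smul := fun f => by
          apply Subtype.ext
          ext n
          change (tw N ((1 : P) : G)⁻¹ f n : ℂ) = _
          rw [tw_apply]
          congr 3
          simp
        mul_smul := fun g h f => by
          apply Subtype.ext
          ext n
          change (tw N ((g * h : P) : G)⁻¹ f n : ℂ) = (tw N (g : G)⁻¹ (tw N (h : G)⁻¹ f) n : ℂ)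
          rw [tw_apply, tw_apply, tw_apply]
          congr 3
          simp [mul_assoc] }
    have hmod := hP.card_modEq_card_fixedPoints {f : N →* ℂˣ // k X f ≠ 0}
    have hfp : Nat.card (MulAction.fixedPoints P {f : N →* ℂˣ // k X f ≠ 0}) = 0 := by
      rw [Nat.card_eq_zero]
      left
      constructor
      rintro ⟨⟨f, hf⟩, hfix'⟩
      have h1 : ∀ g ∈ P, tw N g f = f := by
        intro g hg
        have h2 := hfix' (⟨g, hg⟩⁻¹ : P)
        have h3 : tw N (g⁻¹)⁻¹ f = f := congrArg Subtype.val h2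
        rwa [inv_inv] at h3
      have h2 := eq_one_of_fixed N P hP hab' hodd hfix h1
      rw [h2] at hf
      exact hf hk1
    rw [hfp] at hmod
    exact (Nat.even_iff).2 hmod
  · -- the stabiliser
    obtain ⟨mH, -, hmH, hdH⟩ := exists_mult (isCharacter_comp H.subtype (isIrr_isCharacter X.2))
    have hX1' : classInner (fun h : H => (X : G → ℂ) h) (1 : H → ℂ) = 1 := by
      have h1 := hm X
      rw [Cfsg.Agent.OddOrderCharacters.Clifford.classInner_indFun H _ _ hXc, hX1] at h1
      rw [← classInner_conj_symm, h1]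
      simp
    have hfin : Finite (G →* ℂˣ) := finite_hom G
    have hfinF : Finite (Fix (X : G → ℂ)) := by unfold Cfsg.Agent.H694.Fix; infer_instance
    let Φ : Fix (X : G → ℂ) → {θ : IrrCharacter H // mH θ ≠ 0} := fun f =>
      ⟨⟨fun h => ((f.1.comp H.subtype) h : ℂ), Cfsg.Agent.Characters.Linear.isIrrCharacter_hom (f.1.comp H.subtype)⟩, by
        have h1 := hmH ⟨fun h => ((f.1.comp H.subtype) h : ℂ),
          Cfsg.Agent.Characters.Linear.isIrrCharacter_hom (f.1.comp H.subtype)⟩
        have h2 : classInner (fun h : H => (X : G → ℂ) h) (fun h => ((f.1.comp H.subtype) h : ℂ)) = 1 := by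
          rw [← hX1', classInner_def, classInner_def]
          congr 1
          refine Finset.sum_congr rfl fun h _ => ?_
          have h3 := f.2.2 (h : G)
          have h4 : conj ((f.1 (h : G) : ℂˣ) : ℂ) = ((f.1 (h : G) : ℂˣ) : ℂ) := by
            have h5 := f.2.1 (h : G)
            have h6 : ((f.1 (h : G) : ℂˣ) : ℂ) * ((f.1 (h : G) : ℂˣ) : ℂ) = 1 := by
              rw [← Units.val_mul, h5, Units.val_one]
            rcases mul_self_eq_one_iff.1 h6 with h7 | h7 <;> rw [h7] <;> simp
          change (X : G → ℂ) h * conj ((f.1 (h : G) : ℂˣ) : ℂ) = (X : G → ℂ) h * conj 1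
          rw [h4, mul_comm, h3, map_one, mul_one]
        intro h0
        have h3 : classInner (fun h : H => (X : G → ℂ) h) (fun h => ((f.1.comp H.subtype) h : ℂ)) = 0 := by
          have h4 : classInner (fun h : H => (X : G → ℂ) h) (fun h => ((f.1.comp H.subtype) h : ℂ)) = (mH _ : ℂ) := h1
          rw [h4, h0]; simp
        rw [h2] at h3
        exact one_ne_zero h3⟩
    have hΦ : Function.Injective Φ := by
      intro f f' h
      have h1 : ∀ h : H, f.1 h = f'.1 h := by
        intro x
        have h2 := congrFun (congrArg (fun y => ((y.1 : IrrCharacter H) : H → ℂ)) h) x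
        exact Units.ext h2
      apply Subtype.ext
      apply MonoidHom.ext
      intro g
      have hg : g ∈ (N : Set G) * (H : Set G) := by rw [← Subgroup.normal_mul, hsup]; trivial
      obtain ⟨n, hn, x, hx, rfl⟩ := Set.mem_mul.1 hg
      have h3 : ∀ f : G →* ℂˣ, f n = 1 := by
        intro f
        have h4 : commutator G ≤ f.ker := Abelianization.commutator_subset_ker f
        exact h4 (hcomm hn)
      rw [map_mul, map_mul, h3, h3, h1 ⟨x, hx⟩]
    have h1 := Nat.card_le_card_of_injective Φ hΦ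
    refine h1.trans ?_
    have h2 : charDegree (X : G → ℂ) = ∑ ψ : IrrCharacter H, mH ψ * charDegree (ψ : H → ℂ) := hdH
    rw [h2, Nat.card_eq_fintype_card, Fintype.card_subtype, Finset.card_filter]
    refine Finset.sum_le_sum fun θ _ => ?_
    split_ifs with h3
    · obtain ⟨d, hd0, hd⟩ := isIrr_apply_one θ.2
      have h4 := deg_eq (isIrr_isCharacter θ.2)
      rw [hd] at h4
      have h5 : d = charDegree (θ : H → ℂ) := by exact_mod_cast h4
      rw [← h5]
      exact Nat.mul_pos (Nat.pos_of_ne_zero h3) hd0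
    · exact Nat.zero_le _

end

end Cfsg.Agent.H667.AvgKey
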