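import Cfsg.Agent.H667.AvgTwo
import Cfsg.Agent.H612.MinNormal

/-!
# Reduction of S4867 to groups with a simple "wreath" factor (helper667)

`Concl G` : `G` has a strongly real irreducible character `X` of even degree with `|Fix X| + 2 < X(1)`.
`concl_of_not_solvable` : if every group with a non-abelian simple subgroup `S` whose conjugates are equal to `S` or
commute with `S` satisfies `Concl`, then so does every non-solvable group.
-/

set_option autoImplicit false
set_option linter.style.haveILetI false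

namespace Cfsg.Agent.H667.Avg

open Cfsg
open Cfsg.Agent.Characters.Core
open Cfsg.Agent.H705.StrongLin (ind ind_eq)
open Cfsg.Agent.H694 (Fix finite_hom)

universe u

/-- the conclusion of the main step -/
def Concl (G : Type u) [Group G] : Prop :=
  ∃ X : G → ℂ, IsIrrCharacter G X ∧ ind X = 1 ∧ Even (charDegree X) ∧ Nat.card (Fix X) + 2 < charDegree X

theorem ind_comp (G : Type u) [Group G] [Finite G] (N : Subgroup G) [N.Normal] (χ : G ⧸ N → ℂ) :
    ind (χ ∘ QuotientGroup.mk' N) = ind χ := by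
  classical
  haveI := Fintype.ofFinite G
  haveI := Fintype.ofFinite (G ⧸ N)
  rw [ind_eq, ind_eq]
  have h1 : ∑ g : G, (χ ∘ QuotientGroup.mk' N) (g * g) = (Nat.card N : ℂ) * ∑ x : G ⧸ N, χ (x * x) := by
    rw [← Finset.sum_fiberwise (s := Finset.univ) (g := fun g : G => (QuotientGroup.mk' N g)), Finset.mul_sum]
    refine Finset.sum_congr rfl fun x _ => ?_
    have h2 : ∀ g ∈ Finset.univ.filter (fun g : G => QuotientGroup.mk' N g = x),
        (χ ∘ QuotientGroup.mk' N) (g * g) = χ (x * x) := by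
      intro g hg
      rw [Function.comp_apply, map_mul, (Finset.mem_filter.1 hg).2]
    rw [Finset.sum_congr rfl h2, Finset.sum_const, nsmul_eq_mul]
    congr 2
    obtain ⟨g0, rfl⟩ := QuotientGroup.mk'_surjective N x
    rw [← Fintype.card_subtype, ← Nat.card_eq_fintype_card]
    refine Nat.card_congr ?_
    refine
      { toFun := fun g => ⟨g0⁻¹ * g.1, by
          have := g.2
          exact QuotientGroup.eq.1 this.symm⟩
        invFun := fun n => ⟨g0 * n.1, by
          change (QuotientGroup.mk (g0 * n.1) : G ⧸ N) = QuotientGroup.mk g0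
          rw [QuotientGroup.mk_mul_of_mem _ n.2]⟩
        left_inv := fun g => Subtype.ext (mul_inv_cancel_left g0 g.1)
        right_inv := fun n => Subtype.ext (inv_mul_cancel_left g0 n.1) }
  rw [h1, ← Subgroup.card_mul_index N, Subgroup.index_eq_card]
  have h3 : (Nat.card N : ℂ) ≠ 0 := card_ne_zero_complex
  have h4 : (Nat.card (G ⧸ N) : ℂ) ≠ 0 := card_ne_zero_complex
  push_cast
  field_simp

/-- inflation -/
theorem concl_of_quotient (G : Type u) [Group G] [Finite G] (N : Subgroup G) [N.Normal] (h : Concl (G ⧸ N)) :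
    Concl G := by
  obtain ⟨X, hX, hi, he, hf⟩ := h
  refine ⟨X ∘ QuotientGroup.mk' N, isIrr_comp _ (QuotientGroup.mk'_surjective N) hX, (ind_comp G N X).trans hi,
    he, lt_of_le_of_lt (Nat.add_le_add_right ?_ 2) hf⟩
  haveI := finite_hom (G ⧸ N)
  haveI hfF : Finite (Fix X) := by unfold Cfsg.Agent.H694.Fix; infer_instance
  have hX1 : X 1 ≠ 0 := by
    rw [(deg_irr hX).1]
    exact_mod_cast (deg_irr hX).2.ne'
  have hN : ∀ f : Fix (X ∘ QuotientGroup.mk' N), ∀ n ∈ N, f.1 n = 1 := by
    intro f n hn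
    have h1 := f.2.2 n
    have h2 : (X ∘ QuotientGroup.mk' N) n = X 1 := by
      change X (QuotientGroup.mk' N n) = X 1
      rw [QuotientGroup.mk'_apply, (QuotientGroup.eq_one_iff n).2 hn]
    rw [h2] at h1
    have h3 : (f.1 n : ℂ) = 1 := by
      have : (f.1 n : ℂ) * X 1 = 1 * X 1 := by rw [h1, one_mul]
      exact mul_right_cancel₀ hX1 this
    exact Units.ext h3
  refine Nat.card_le_card_of_injective (fun f : Fix (X ∘ QuotientGroup.mk' N) =>
    (⟨QuotientGroup.lift N f.1 (hN f), ⟨fun x => ?_, fun x => ?_⟩⟩ : Fix X)) ?_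
  · obtain ⟨g, rfl⟩ := QuotientGroup.mk'_surjective N x
    exact f.2.1 g
  · obtain ⟨g, rfl⟩ := QuotientGroup.mk'_surjective N x
    exact f.2.2 g
  · intro f f' hff
    have h1 := congrArg Subtype.val hff
    apply Subtype.ext
    ext g
    have h2 := congrArg (fun h : (G ⧸ N) →* ℂˣ => ((h (QuotientGroup.mk' N g) : ℂˣ) : ℂ)) h1
    exact h2

/-- **(iv)** the reduction -/
theorem concl_of_not_solvable
    (hwr : ∀ (G : Type u) [Group G] [Finite G] (S : Subgroup G), IsSimpleGroup S → ¬ IsMulCommutative S →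
      (∀ g : G, S.map (MulAut.conj g).toMonoidHom = S ∨
        S.map (MulAut.conj g).toMonoidHom ≤ Subgroup.centralizer (S : Set G)) → Concl G) :
    ∀ (n : ℕ) (G : Type u) [Group G] [Finite G], Nat.card G = n → ¬ Group.IsSolvable G → Concl G := by
  intro n
  induction n using Nat.strong_induction_on with
  | _ n ih =>
    intro G _ _ hn hG
    have hnt : (⊤ : Subgroup G) ≠ ⊥ := by
      intro h
      apply hG
      haveI : Subsingleton G := Subgroup.subsingleton_iff.1 ⟨fun a b => by
        have ha : a ≤ ⊥ := h ▸ le_top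
        have hb : b ≤ ⊥ := h ▸ le_top
        rw [le_bot_iff.1 ha, le_bot_iff.1 hb]⟩
      infer_instance
    obtain ⟨N, ⟨hN1, hN2⟩, hmin⟩ := (Set.toFinite {N : Subgroup G | N.Normal ∧ N ≠ ⊥}).exists_minimal
      ⟨⊤, inferInstance, hnt⟩
    haveI := hN1
    have hmin' : ∀ K : Subgroup G, K.Normal → K ≤ N → K = ⊥ ∨ K = N := by
      intro K hK hKN
      by_cases h : K = ⊥
      · exact Or.inl h
      · exact Or.inr (le_antisymm hKN (hmin (y := K) ⟨hK, h⟩ hKN))
    by_cases hab : ∀ a ∈ N, ∀ b ∈ N, a * b = b * a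
    · have hs : Group.IsSolvable N := by
        exact Group.isSolvable_of_comm fun a b : N => Subtype.ext (hab a a.2 b b.2)
      have hlt : Nat.card (G ⧸ N) < n := by
        rw [← hn, ← Subgroup.card_mul_index N, Subgroup.index_eq_card]
        have h1 : 1 < Nat.card N := by
          rw [Subgroup.one_lt_card_iff_ne_bot]; exact hN2
        have h2 : 0 < Nat.card (G ⧸ N) := Nat.card_pos
        exact lt_mul_of_one_lt_left h2 h1
      have hq : ¬ Group.IsSolvable (G ⧸ N) := fun h =>
        hG ((Group.isSolvable_iff_subgroup_quotient N).2 ⟨hs, h⟩)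
      exact concl_of_quotient G N (ih _ hlt (G ⧸ N) rfl hq)
    · obtain ⟨S, -, -, hS, hSc, -, hSg⟩ := Cfsg.Agent.H612.MinNormal.exists_factor N hN2 hmin' hab
      exact hwr G S hS hSc hSg

/-- **S4867** from the wreath step -/
theorem s4867_of
    (hwr : ∀ (G : Type u) [Group G] [Finite G] (S : Subgroup G), IsSimpleGroup S → ¬ IsMulCommutative S →
      (∀ g : G, S.map (MulAut.conj g).toMonoidHom = S ∨
        S.map (MulAut.conj g).toMonoidHom ≤ Subgroup.centralizer (S : Set G)) → Concl G)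
    {G : Type u} [Group G] [Finite G] (h : (∑ᶠ χ : {χ : Cfsg.IrrCharacter G // (Cfsg.charDegree (χ : G → ℂ) = 1 ∨ 2 ∣ Cfsg.charDegree (χ : G → ℂ)) ∧ (Nat.card G : ℂ)⁻¹ * ∑ᶠ g : G, (χ : G → ℂ) (g * g) = 1}, Cfsg.charDegree (χ.1 : G → ℂ)) ≤ 2 * Nat.card {χ : Cfsg.IrrCharacter G // (Cfsg.charDegree (χ : G → ℂ) = 1 ∨ 2 ∣ Cfsg.charDegree (χ : G → ℂ)) ∧ (Nat.card G : ℂ)⁻¹ * ∑ᶠ g : G, (χ : G → ℂ) (g * g) = 1}) : Group.IsSolvable G := by
  by_contra hG
  obtain ⟨X, hX, hi, he, hf⟩ := concl_of_not_solvable hwr _ G rfl hG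
  exact not_hyp_two G X hX hi he hf h

end Cfsg.Agent.H667.Avg
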