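import Cfsg.Agent.H667.Avg

/-!
# The average degree of the strongly real characters (for S4868, helper667)

`not_hyp` : a strongly real irreducible character `X` of even degree with `|Fix X| + 4 ≤ 3 X(1)` excludes `Hyp43 G`.
`hyp_quotient` : `Hyp43 G` passes to `G ⧸ N` for `N ≤ G'`.
-/

set_option autoImplicit false
set_option linter.style.haveILetI false

namespace Cfsg.Agent.H667.Avg

open Cfsg
open Cfsg.Agent.Characters.Core
open Cfsg.Agent.H705.StrongLin (ind ind_eq)
open Cfsg.Agent.H694 (Fix finite_hom)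

universe u

/-- the strongly real irreducible characters of degree one or even -/
abbrev SR (G : Type u) [Group G] : Type u :=
  {χ : Cfsg.IrrCharacter G // (Cfsg.charDegree (χ : G → ℂ) = 1 ∨ 2 ∣ Cfsg.charDegree (χ : G → ℂ)) ∧
    (Nat.card G : ℂ)⁻¹ * ∑ᶠ g : G, (χ : G → ℂ) (g * g) = 1}

theorem finite_sr (G : Type u) [Group G] [Finite G] : Finite (SR G) := by
  have := finite_irr (G := G)
  infer_instance

theorem deg_irr {G : Type u} [Group G] {χ : G → ℂ} (h : IsIrrCharacter G χ) :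
    χ 1 = (charDegree χ : ℂ) ∧ 0 < charDegree χ := by
  have h1 := AvgKey.deg_eq (isIrr_isCharacter h)
  obtain ⟨d, hd0, hd⟩ := isIrr_apply_one h
  refine ⟨h1, ?_⟩
  rw [hd] at h1
  have : d = charDegree χ := by exact_mod_cast h1
  omega

theorem hyp_iff {G : Type u} [Group G] [Finite G] [Fintype (SR G)] :
    Hyp43 G ↔ ∑ χ : SR G, (3 * (charDegree (χ.1 : G → ℂ) : ℤ) - 4) < 0 := by
  have h0 : Hyp43 G ↔ 3 * (∑ χ : SR G, charDegree (χ.1 : G → ℂ)) < 4 * Fintype.card (SR G) := by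
    rw [← Nat.card_eq_fintype_card, ← finsum_eq_sum_of_fintype]
    rfl
  rw [h0, Finset.sum_sub_distrib, ← Finset.mul_sum,
    Finset.sum_const, Finset.card_univ, sub_neg, nsmul_eq_mul]
  constructor
  · intro h
    have h1 : ((3 * ∑ χ : SR G, charDegree (χ.1 : G → ℂ) : ℕ) : ℤ) < ((4 * Fintype.card (SR G) : ℕ) : ℤ) := by
      exact_mod_cast h
    push_cast at h1
    linarith
  · intro h
    have h1 : ((3 * ∑ χ : SR G, charDegree (χ.1 : G → ℂ) : ℕ) : ℤ) < ((4 * Fintype.card (SR G) : ℕ) : ℤ) := by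
      push_cast
      linarith
    exact_mod_cast h1

/-- the real linear characters -/
abbrev RL (G : Type u) [Group G] : Type u := {f : G →* ℂˣ // ∀ g, f g * f g = 1}

theorem charDegree_mul {G : Type u} [Group G] (f : G →* ℂˣ) (X : G → ℂ) :
    charDegree (fun g => (f g : ℂ) * X g) = charDegree X := by
  rw [charDegree, charDegree, map_one, Units.val_one, one_mul]

theorem ind_mul {G : Type u} [Group G] [Finite G] {f : G →* ℂˣ} (hf : ∀ g, f g * f g = 1) (X : G → ℂ) :
    ind (fun g => (f g : ℂ) * X g) = ind X := by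
  haveI := Fintype.ofFinite G
  rw [ind_eq, ind_eq]
  congr 1
  refine Finset.sum_congr rfl fun g _ => ?_
  rw [map_mul, hf, Units.val_one, one_mul]

theorem irr_mul {G : Type u} [Group G] [Finite G] (f : G →* ℂˣ) {X : G → ℂ} (hX : IsIrrCharacter G X) :
    IsIrrCharacter G (fun g => (f g : ℂ) * X g) := by
  haveI := Fintype.ofFinite G
  have h1 : IsCharacter G (fun g => (f g : ℂ) * X g) :=
    isCharacter_mul (Cfsg.Agent.Characters.Linear.isCharacter_hom f) (isIrr_isCharacter hX)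
  refine isIrr_of_classInner_self h1 ?_
  rw [← classInner_irr_self hX, classInner_def, classInner_def]
  congr 1
  refine Finset.sum_congr rfl fun g _ => ?_
  have h2 : ‖(f g : ℂ)‖ = 1 := Cfsg.Agent.Characters.Linear.norm_hom_apply f g
  have h3 : (f g : ℂ) * (starRingEnd ℂ) (f g : ℂ) = 1 := by
    rw [Complex.mul_conj, Complex.normSq_eq_norm_sq, h2]; norm_num
  rw [map_mul]
  calc (f g : ℂ) * X g * ((starRingEnd ℂ) (f g : ℂ) * (starRingEnd ℂ) (X g))
      = ((f g : ℂ) * (starRingEnd ℂ) (f g : ℂ)) * (X g * (starRingEnd ℂ) (X g)) := by ring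
    _ = X g * (starRingEnd ℂ) (X g) := by rw [h3, one_mul]

/-- **(i)** -/
theorem not_hyp (G : Type u) [Group G] [Finite G] (X : G → ℂ) (hX : IsIrrCharacter G X) (hi : ind X = 1)
    (he : Even (charDegree X)) (hf : Nat.card (Fix X) + 4 ≤ 3 * charDegree X) : ¬ Hyp43 G := by
  classical
  haveI := finite_sr G
  haveI := Fintype.ofFinite (SR G)
  haveI := finite_hom G
  haveI := Fintype.ofFinite (RL G)
  haveI hfF : Finite (Fix X) := by unfold Cfsg.Agent.H694.Fix; infer_instance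
  haveI := Fintype.ofFinite (Fix X)
  rw [hyp_iff, not_lt]
  -- the orbit of `X`
  let Φ : RL G → SR G := fun f => ⟨⟨fun g => (f.1 g : ℂ) * X g, irr_mul f.1 hX⟩,
    ⟨Or.inr (by
      change 2 ∣ charDegree (fun g => (f.1 g : ℂ) * X g)
      rw [charDegree_mul]; exact he.two_dvd), (ind_mul f.2 X).trans hi⟩⟩
  have hΦd : ∀ f, charDegree ((Φ f).1 : G → ℂ) = charDegree X := fun f => charDegree_mul f.1 X
  have hfib : ∀ a ∈ Finset.univ.image Φ, (Finset.univ.filter fun f => Φ f = a).card ≤ Fintype.card (Fix X) := by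
    intro a ha
    obtain ⟨f0, -, rfl⟩ := Finset.mem_image.1 ha
    have h1 : ∀ f ∈ Finset.univ.filter (fun f => Φ f = Φ f0), ∀ g, ((f0.1⁻¹ * f.1) g : ℂ) * X g = X g := by
      intro f hf g
      have h2 : (fun g => (f.1 g : ℂ) * X g) = fun g => (f0.1 g : ℂ) * X g := by
        have := (Finset.mem_filter.1 hf).2
        exact congrArg (fun y : SR G => ((y.1 : IrrCharacter G) : G → ℂ)) this
      have h3 := congrFun h2 g
      rw [MonoidHom.mul_apply, MonoidHom.inv_apply, Units.val_mul, mul_assoc]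
      rw [show (f.1 g : ℂ) * X g = (f0.1 g : ℂ) * X g from h3, ← mul_assoc, ← Units.val_mul, inv_mul_cancel, Units.val_one, one_mul]
    have hex : ∀ f : RL G, ∃ y : Fix X, Φ f = Φ f0 → y.1 = f0.1⁻¹ * f.1 := by
      intro f
      by_cases h : Φ f = Φ f0
      · refine ⟨⟨f0.1⁻¹ * f.1, ⟨fun g => ?_, h1 f (Finset.mem_filter.2 ⟨Finset.mem_univ _, h⟩)⟩⟩, fun _ => rfl⟩
        rw [MonoidHom.mul_apply, MonoidHom.inv_apply]
        have h4 := f0.2 g
        have h5 := f.2 g
        calc (f0.1 g)⁻¹ * f.1 g * ((f0.1 g)⁻¹ * f.1 g) = (f0.1 g * f0.1 g)⁻¹ * (f.1 g * f.1 g) := by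
              rw [mul_mul_mul_comm, mul_inv]
          _ = 1 := by rw [h4, h5]; simp
      · exact ⟨⟨1, ⟨fun g => by simp, fun g => by simp⟩⟩, fun h' => absurd h' h⟩
    choose y hy using hex
    rw [← Finset.card_univ]
    refine Finset.card_le_card_of_injOn y (fun _ _ => Finset.mem_univ _) ?_
    intro f hf f' hf' hff
    have hf1 := hy f (Finset.mem_filter.1 hf).2
    have hf1' := hy f' (Finset.mem_filter.1 hf').2
    rw [hff, hf1'] at hf1
    exact Subtype.ext (mul_left_cancel hf1).symm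
  have hB := Finset.card_le_mul_card_image (s := (Finset.univ : Finset (RL G))) (f := Φ) (Fintype.card (Fix X)) hfib
  -- the linear characters
  set A : Finset (SR G) := Finset.univ.filter fun χ => charDegree (χ.1 : G → ℂ) = 1 with hA
  set B : Finset (SR G) := Finset.univ.image Φ with hBdef
  have hAcard : A.card ≤ Fintype.card (RL G) := by
    have hlin : ∀ χ : SR G, charDegree (χ.1 : G → ℂ) = 1 → ∃ f : RL G, (χ.1 : G → ℂ) = fun g => (f.1 g : ℂ) := by
      intro χ hχ
      have h1 : (χ.1 : G → ℂ) 1 = 1 := by rw [(deg_irr χ.1.2).1, hχ]; simp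
      obtain ⟨f, hf⟩ := Cfsg.Agent.Characters.Linear.exists_hom_of_isIrrCharacter χ.1.2 h1
      refine ⟨⟨f, fun g => ?_⟩, hf⟩
      have h2 : ind (fun g => (f g : ℂ)) = 1 := by rw [← hf]; exact χ.2.2
      exact Cfsg.Agent.H705.StrongLin.sq_eq_one h2 g
    rw [← Finset.card_univ]
    refine Finset.card_le_card_of_injOn (fun χ => if h : charDegree (χ.1 : G → ℂ) = 1 then (hlin χ h).choose
      else ⟨1, fun g => by simp⟩) (fun _ _ => Finset.mem_univ _) ?_
    intro χ hχ χ' hχ' h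
    have h1 : charDegree (χ.1 : G → ℂ) = 1 := (Finset.mem_filter.1 hχ).2
    have h1' : charDegree (χ'.1 : G → ℂ) = 1 := (Finset.mem_filter.1 hχ').2
    beta_reduce at h
    rw [dif_pos h1, dif_pos h1'] at h
    have h2 := (hlin χ h1).choose_spec
    have h2' := (hlin χ' h1').choose_spec
    apply Subtype.ext
    apply Subtype.ext
    rw [h2, h2', h]
  have hd2 : 2 ≤ charDegree X := by
    have := (deg_irr hX).2
    obtain ⟨c, hc⟩ := he
    omega
  have hdisj : Disjoint A B := by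
    rw [Finset.disjoint_left]
    intro χ hχ hχ'
    obtain ⟨f, -, rfl⟩ := Finset.mem_image.1 hχ'
    have h1 := (Finset.mem_filter.1 hχ).2
    rw [hΦd] at h1
    omega
  have hge : ∀ χ : SR G, χ ∉ A → (0 : ℤ) ≤ 3 * (charDegree (χ.1 : G → ℂ) : ℤ) - 4 := by
    intro χ hχ
    have h1 : charDegree (χ.1 : G → ℂ) ≠ 1 := fun h => hχ (Finset.mem_filter.2 ⟨Finset.mem_univ _, h⟩)
    have h2 := (deg_irr χ.1.2).2
    omega
  have h1 : ∑ χ ∈ A ∪ B, (3 * (charDegree (χ.1 : G → ℂ) : ℤ) - 4) ≤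
      ∑ χ : SR G, (3 * (charDegree (χ.1 : G → ℂ) : ℤ) - 4) :=
    Finset.sum_le_sum_of_subset_of_nonneg (Finset.subset_univ _) fun χ _ hχ =>
      hge χ fun h => hχ (Finset.mem_union_left _ h)
  rw [Finset.sum_union hdisj] at h1
  have h2 : ∑ χ ∈ A, (3 * (charDegree (χ.1 : G → ℂ) : ℤ) - 4) = -(A.card : ℤ) := by
    have h4 : ∀ χ ∈ A, (3 * (charDegree (χ.1 : G → ℂ) : ℤ) - 4) = -1 := by
      intro χ hχ
      rw [(Finset.mem_filter.1 hχ).2]; norm_num
    rw [Finset.sum_congr rfl h4, Finset.sum_const]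
    simp
  have h3 : ∑ χ ∈ B, (3 * (charDegree (χ.1 : G → ℂ) : ℤ) - 4) = (B.card : ℤ) * (3 * (charDegree X : ℤ) - 4) := by
    have h4 : ∀ χ ∈ B, (3 * (charDegree (χ.1 : G → ℂ) : ℤ) - 4) = 3 * (charDegree X : ℤ) - 4 := by
      intro χ hχ
      obtain ⟨f, -, rfl⟩ := Finset.mem_image.1 hχ
      rw [hΦd]
    rw [Finset.sum_congr rfl h4, Finset.sum_const, nsmul_eq_mul]
  refine le_trans ?_ h1
  rw [h2, h3]
  rw [Finset.card_univ] at hB
  have h4 : (A.card : ℤ) ≤ Fintype.card (Fix X) * B.card := by exact_mod_cast hAcard.trans hB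
  have h5 : (Fintype.card (Fix X) : ℤ) ≤ 3 * (charDegree X : ℤ) - 4 := by
    rw [Nat.card_eq_fintype_card] at hf
    omega
  have h6 : (Fintype.card (Fix X) : ℤ) * B.card ≤ (3 * (charDegree X : ℤ) - 4) * B.card :=
    mul_le_mul_of_nonneg_right h5 (by positivity)
  linarith

/-- **(ii)** -/
theorem hyp_quotient (G : Type u) [Group G] [Finite G] (N : Subgroup G) [N.Normal] (hN : N ≤ commutator G)
    (h : Hyp43 G) : Hyp43 (G ⧸ N) := by
  classical
  haveI := finite_sr G
  haveI := Fintype.ofFinite (SR G)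
  haveI := finite_sr (G ⧸ N)
  haveI := Fintype.ofFinite (SR (G ⧸ N))
  haveI := Fintype.ofFinite G
  haveI := Fintype.ofFinite (G ⧸ N)
  rw [hyp_iff] at h ⊢
  have hind : ∀ χ : G ⧸ N → ℂ, ind (χ ∘ QuotientGroup.mk' N) = ind χ := by
    intro χ
    rw [ind_eq, ind_eq]
    have h1 : ∑ g : G, (χ ∘ QuotientGroup.mk' N) (g * g) = (Nat.card N : ℂ) * ∑ x : G ⧸ N, χ (x * x) := by
      rw [← Finset.sum_fiberwise (s := Finset.univ) (g := fun g : G => (QuotientGroup.mk' N g)), Finset.mul_sum]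
      refine Finset.sum_congr rfl fun x _ => ?_
      have h2 : ∀ g ∈ Finset.univ.filter (fun g : G => QuotientGroup.mk' N g = x),
          (χ ∘ QuotientGroup.mk' N) (g * g) = χ (x * x) := by
        intro g hg
        rw [Function.comp_apply, map_mul, (Finset.mem_filter.1 hg).2]
      rw [Finset.sum_congr rfl h2, Finset.sum_const, nsmul_eq_mul]
      congr 2
      obtain ⟨g0, rfl⟩ := QuotientGroup.mk'_surjective N x
      rw [← Fintype.card_subtype, ← Nat.card_eq_fintype_card]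
      refine Nat.card_congr ?_
      refine
        { toFun := fun g => ⟨g0⁻¹ * g.1, by
            have := g.2
            exact QuotientGroup.eq.1 this.symm⟩
          invFun := fun n => ⟨g0 * n.1, by
            change (QuotientGroup.mk (g0 * n.1) : G ⧸ N) = QuotientGroup.mk g0
            rw [QuotientGroup.mk_mul_of_mem _ n.2]⟩
          left_inv := fun g => Subtype.ext (mul_inv_cancel_left g0 g.1)
          right_inv := fun n => Subtype.ext (inv_mul_cancel_left g0 n.1) }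
    rw [h1, ← Subgroup.card_mul_index N, Subgroup.index_eq_card]
    have h3 : (Nat.card N : ℂ) ≠ 0 := card_ne_zero_complex
    have h4 : (Nat.card (G ⧸ N) : ℂ) ≠ 0 := card_ne_zero_complex
    push_cast
    field_simp
  let Ψ : SR (G ⧸ N) → SR G := fun χ =>
    ⟨⟨(χ.1 : G ⧸ N → ℂ) ∘ QuotientGroup.mk' N, isIrr_comp _ (QuotientGroup.mk'_surjective N) χ.1.2⟩,
      ⟨χ.2.1, (hind _).trans χ.2.2⟩⟩
  have hΨ : Function.Injective Ψ := by
    intro χ χ' h1
    apply Subtype.ext
    apply Subtype.ext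
    funext x
    obtain ⟨g, rfl⟩ := QuotientGroup.mk'_surjective N x
    exact congrFun (congrArg (fun y : SR G => ((y.1 : IrrCharacter G) : G → ℂ)) h1) g
  have hd : ∀ χ, charDegree ((Ψ χ).1 : G → ℂ) = charDegree (χ.1 : G ⧸ N → ℂ) := fun χ => rfl
  refine lt_of_le_of_lt ?_ h
  have h1 : ∑ χ : SR (G ⧸ N), (3 * (charDegree (χ.1 : G ⧸ N → ℂ) : ℤ) - 4) =
      ∑ χ ∈ Finset.univ.image Ψ, (3 * (charDegree (χ.1 : G → ℂ) : ℤ) - 4) := by
    rw [Finset.sum_image fun _ _ _ _ h2 => hΨ h2]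
    exact Finset.sum_congr rfl fun χ _ => by rw [hd]
  rw [h1]
  refine Finset.sum_le_sum_of_subset_of_nonneg (Finset.subset_univ _) fun χ _ hχ => ?_
  have h2 : charDegree (χ.1 : G → ℂ) ≠ 1 := by
    intro hdeg
    apply hχ
    have h3 : (χ.1 : G → ℂ) 1 = 1 := by rw [(deg_irr χ.1.2).1, hdeg]; simp
    obtain ⟨f, hf⟩ := Cfsg.Agent.Characters.Linear.exists_hom_of_isIrrCharacter χ.1.2 h3
    have h4 : N ≤ f.ker := hN.trans (Abelianization.commutator_subset_ker f)
    let f' : G ⧸ N →* ℂˣ := QuotientGroup.lift N f fun n hn => h4 hn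
    have h5 : (χ.1 : G → ℂ) = (fun x => (f' x : ℂ)) ∘ QuotientGroup.mk' N := by
      rw [hf]; rfl
    have h6 : ind (fun x => (f' x : ℂ)) = 1 := by
      rw [← hind, ← h5]; exact χ.2.2
    refine Finset.mem_image.2 ⟨⟨⟨fun x => (f' x : ℂ), Cfsg.Agent.Characters.Linear.isIrrCharacter_hom f'⟩,
      ⟨Or.inl ?_, h6⟩⟩, Finset.mem_univ _, ?_⟩
    · have h7 : charDegree ((fun x => (f' x : ℂ)) ∘ QuotientGroup.mk' N) = charDegree (fun x => (f' x : ℂ)) := rfl
      change charDegree (fun x => (f' x : ℂ)) = 1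
      rw [← h7, ← h5, hdeg]
    · apply Subtype.ext
      apply Subtype.ext
      exact h5.symm
  have h3 := (deg_irr χ.1.2).2
  omega

end Cfsg.Agent.H667.Avg
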