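import Cfsg.Agent.H667.AvgSum

/-!
# The average degree of the strongly real characters (for S4867, helper667)

`not_hyp_two` : a strongly real irreducible character `X` of even degree with `|Fix X| + 2 < X(1)` excludes
the hypothesis `Hyp2 G` of S4867.
-/

set_option autoImplicit false
set_option linter.style.haveILetI false

namespace Cfsg.Agent.H667.Avg

open Cfsg
open Cfsg.Agent.Characters.Core
open Cfsg.Agent.H705.StrongLin (ind ind_eq)
open Cfsg.Agent.H694 (Fix finite_hom)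

universe u

/-- the weighted sum, generic form -/
theorem sum_ge (a : ℕ) (ha : 1 ≤ a) (G : Type u) [Group G] [Finite G] [Fintype (SR G)] (X : G → ℂ)
    (hX : IsIrrCharacter G X) (hi : ind X = 1) (he : Even (charDegree X)) : ∃ b : ℕ, 1 ≤ b ∧
      (b : ℤ) * ((a : ℤ) * charDegree X - (a + 1) - Nat.card (Fix X)) ≤
        ∑ χ : SR G, ((a : ℤ) * (charDegree (χ.1 : G → ℂ) : ℤ) - (a + 1)) := by
  classical
  haveI := finite_hom G
  haveI := Fintype.ofFinite (RL G)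
  haveI hfF : Finite (Fix X) := by unfold Cfsg.Agent.H694.Fix; infer_instance
  haveI := Fintype.ofFinite (Fix X)
  -- the orbit of `X`
  let Φ : RL G → SR G := fun f => ⟨⟨fun g => (f.1 g : ℂ) * X g, irr_mul f.1 hX⟩,
    ⟨Or.inr (by
      change 2 ∣ charDegree (fun g => (f.1 g : ℂ) * X g)
      rw [charDegree_mul]; exact he.two_dvd), (ind_mul f.2 X).trans hi⟩⟩
  have hΦd : ∀ f, charDegree ((Φ f).1 : G → ℂ) = charDegree X := fun f => charDegree_mul f.1 X
  have hfib : ∀ a ∈ Finset.univ.image Φ, (Finset.univ.filter fun f => Φ f = a).card ≤ Fintype.card (Fix X) := by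
    intro a ha
    obtain ⟨f0, -, rfl⟩ := Finset.mem_image.1 ha
    have h1 : ∀ f ∈ Finset.univ.filter (fun f => Φ f = Φ f0), ∀ g, ((f0.1⁻¹ * f.1) g : ℂ) * X g = X g := by
      intro f hf g
      have h2 : (fun g => (f.1 g : ℂ) * X g) = fun g => (f0.1 g : ℂ) * X g := by
        have := (Finset.mem_filter.1 hf).2
        exact congrArg (fun y : SR G => ((y.1 : IrrCharacter G) : G → ℂ)) this
      have h3 := congrFun h2 g
      rw [MonoidHom.mul_apply, MonoidHom.inv_apply, Units.val_mul, mul_assoc]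
      rw [show (f.1 g : ℂ) * X g = (f0.1 g : ℂ) * X g from h3, ← mul_assoc, ← Units.val_mul, inv_mul_cancel, Units.val_one, one_mul]
    have hex : ∀ f : RL G, ∃ y : Fix X, Φ f = Φ f0 → y.1 = f0.1⁻¹ * f.1 := by
      intro f
      by_cases h : Φ f = Φ f0
      · refine ⟨⟨f0.1⁻¹ * f.1, ⟨fun g => ?_, h1 f (Finset.mem_filter.2 ⟨Finset.mem_univ _, h⟩)⟩⟩, fun _ => rfl⟩
        rw [MonoidHom.mul_apply, MonoidHom.inv_apply]
        have h4 := f0.2 g
        have h5 := f.2 g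
        calc (f0.1 g)⁻¹ * f.1 g * ((f0.1 g)⁻¹ * f.1 g) = (f0.1 g * f0.1 g)⁻¹ * (f.1 g * f.1 g) := by
              rw [mul_mul_mul_comm, mul_inv]
          _ = 1 := by rw [h4, h5]; simp
      · exact ⟨⟨1, ⟨fun g => by simp, fun g => by simp⟩⟩, fun h' => absurd h' h⟩
    choose y hy using hex
    rw [← Finset.card_univ]
    refine Finset.card_le_card_of_injOn y (fun _ _ => Finset.mem_univ _) ?_
    intro f hf f' hf' hff
    have hf1 := hy f (Finset.mem_filter.1 hf).2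
    have hf1' := hy f' (Finset.mem_filter.1 hf').2
    rw [hff, hf1'] at hf1
    exact Subtype.ext (mul_left_cancel hf1).symm
  have hB := Finset.card_le_mul_card_image (s := (Finset.univ : Finset (RL G))) (f := Φ) (Fintype.card (Fix X)) hfib
  -- the linear characters
  set A : Finset (SR G) := Finset.univ.filter fun χ => charDegree (χ.1 : G → ℂ) = 1 with hA
  set B : Finset (SR G) := Finset.univ.image Φ with hBdef
  have hAcard : A.card ≤ Fintype.card (RL G) := by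
    have hlin : ∀ χ : SR G, charDegree (χ.1 : G → ℂ) = 1 → ∃ f : RL G, (χ.1 : G → ℂ) = fun g => (f.1 g : ℂ) := by
      intro χ hχ
      have h1 : (χ.1 : G → ℂ) 1 = 1 := by rw [(deg_irr χ.1.2).1, hχ]; simp
      obtain ⟨f, hf⟩ := Cfsg.Agent.Characters.Linear.exists_hom_of_isIrrCharacter χ.1.2 h1
      refine ⟨⟨f, fun g => ?_⟩, hf⟩
      have h2 : ind (fun g => (f g : ℂ)) = 1 := by rw [← hf]; exact χ.2.2
      exact Cfsg.Agent.H705.StrongLin.sq_eq_one h2 g
    rw [← Finset.card_univ]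
    refine Finset.card_le_card_of_injOn (fun χ => if h : charDegree (χ.1 : G → ℂ) = 1 then (hlin χ h).choose
      else ⟨1, fun g => by simp⟩) (fun _ _ => Finset.mem_univ _) ?_
    intro χ hχ χ' hχ' h
    have h1 : charDegree (χ.1 : G → ℂ) = 1 := (Finset.mem_filter.1 hχ).2
    have h1' : charDegree (χ'.1 : G → ℂ) = 1 := (Finset.mem_filter.1 hχ').2
    beta_reduce at h
    rw [dif_pos h1, dif_pos h1'] at h
    have h2 := (hlin χ h1).choose_spec
    have h2' := (hlin χ' h1').choose_spec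
    apply Subtype.ext
    apply Subtype.ext
    rw [h2, h2', h]
  have hd2 : 2 ≤ charDegree X := by
    have := (deg_irr hX).2
    obtain ⟨c, hc⟩ := he
    omega
  have hdisj : Disjoint A B := by
    rw [Finset.disjoint_left]
    intro χ hχ hχ'
    obtain ⟨f, -, rfl⟩ := Finset.mem_image.1 hχ'
    have h1 := (Finset.mem_filter.1 hχ).2
    rw [hΦd] at h1
    omega
  have hge : ∀ χ : SR G, χ ∉ A → (0 : ℤ) ≤ (a : ℤ) * (charDegree (χ.1 : G → ℂ) : ℤ) - (a + 1) := by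
    intro χ hχ
    have h1 : charDegree (χ.1 : G → ℂ) ≠ 1 := fun h => hχ (Finset.mem_filter.2 ⟨Finset.mem_univ _, h⟩)
    have h2 := (deg_irr χ.1.2).2
    have h3 : 2 ≤ charDegree (χ.1 : G → ℂ) := by omega
    have h4 : (2 : ℤ) ≤ (charDegree (χ.1 : G → ℂ) : ℤ) := by exact_mod_cast h3
    have h5 : (1 : ℤ) ≤ a := by exact_mod_cast ha
    nlinarith
  have h1 : ∑ χ ∈ A ∪ B, ((a : ℤ) * (charDegree (χ.1 : G → ℂ) : ℤ) - (a + 1)) ≤
      ∑ χ : SR G, ((a : ℤ) * (charDegree (χ.1 : G → ℂ) : ℤ) - (a + 1)) :=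
    Finset.sum_le_sum_of_subset_of_nonneg (Finset.subset_univ _) fun χ _ hχ =>
      hge χ fun h => hχ (Finset.mem_union_left _ h)
  rw [Finset.sum_union hdisj] at h1
  have h2 : ∑ χ ∈ A, ((a : ℤ) * (charDegree (χ.1 : G → ℂ) : ℤ) - (a + 1)) = -(A.card : ℤ) := by
    have h4 : ∀ χ ∈ A, ((a : ℤ) * (charDegree (χ.1 : G → ℂ) : ℤ) - (a + 1)) = -1 := by
      intro χ hχ
      rw [(Finset.mem_filter.1 hχ).2]; push_cast; ring
    rw [Finset.sum_congr rfl h4, Finset.sum_const]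
    simp
  have h3 : ∑ χ ∈ B, ((a : ℤ) * (charDegree (χ.1 : G → ℂ) : ℤ) - (a + 1)) = (B.card : ℤ) * ((a : ℤ) * (charDegree X : ℤ) - (a + 1)) := by
    have h4 : ∀ χ ∈ B, ((a : ℤ) * (charDegree (χ.1 : G → ℂ) : ℤ) - (a + 1)) = (a : ℤ) * (charDegree X : ℤ) - (a + 1) := by
      intro χ hχ
      obtain ⟨f, -, rfl⟩ := Finset.mem_image.1 hχ
      rw [hΦd]
    rw [Finset.sum_congr rfl h4, Finset.sum_const, nsmul_eq_mul]
  rw [Finset.card_univ] at hB
  refine ⟨B.card, ?_, ?_⟩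
  · rw [Nat.one_le_iff_ne_zero, Finset.card_ne_zero]
    exact ⟨Φ ⟨1, fun g => by simp⟩, Finset.mem_image_of_mem _ (Finset.mem_univ _)⟩
  refine le_trans ?_ h1
  rw [h2, h3, Nat.card_eq_fintype_card (α := Fix X)]
  have h4 : (A.card : ℤ) ≤ Fintype.card (Fix X) * B.card := by exact_mod_cast hAcard.trans hB
  nlinarith

/-- the hypothesis of S4867 -/
def Hyp2 (G : Type u) [Group G] : Prop :=
  (∑ᶠ χ : {χ : Cfsg.IrrCharacter G // (Cfsg.charDegree (χ : G → ℂ) = 1 ∨ 2 ∣ Cfsg.charDegree (χ : G → ℂ)) ∧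
    (Nat.card G : ℂ)⁻¹ * ∑ᶠ g : G, (χ : G → ℂ) (g * g) = 1}, Cfsg.charDegree (χ.1 : G → ℂ)) ≤
  2 * Nat.card {χ : Cfsg.IrrCharacter G // (Cfsg.charDegree (χ : G → ℂ) = 1 ∨ 2 ∣ Cfsg.charDegree (χ : G → ℂ)) ∧
    (Nat.card G : ℂ)⁻¹ * ∑ᶠ g : G, (χ : G → ℂ) (g * g) = 1}

/-- **(iii)** -/
theorem not_hyp_two (G : Type u) [Group G] [Finite G] (X : G → ℂ) (hX : IsIrrCharacter G X) (hi : ind X = 1)
    (he : Even (charDegree X)) (hf : Nat.card (Fix X) + 2 < charDegree X) : ¬ Hyp2 G := by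
  classical
  haveI := finite_sr G
  haveI := Fintype.ofFinite (SR G)
  obtain ⟨b, hb, hle⟩ := sum_ge 1 le_rfl G X hX hi he
  have h0 : Hyp2 G ↔ (∑ χ : SR G, charDegree (χ.1 : G → ℂ)) ≤ 2 * Fintype.card (SR G) := by
    rw [← Nat.card_eq_fintype_card, ← finsum_eq_sum_of_fintype]
    rfl
  rw [h0]
  intro h
  have h1 : ((∑ χ : SR G, charDegree (χ.1 : G → ℂ) : ℕ) : ℤ) ≤ ((2 * Fintype.card (SR G) : ℕ) : ℤ) := by
    exact_mod_cast h
  rw [Finset.sum_sub_distrib, ← Finset.mul_sum, Finset.sum_const, Finset.card_univ, nsmul_eq_mul] at hle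
  push_cast at h1 hle
  have h2 : (1 : ℤ) ≤ b := by exact_mod_cast hb
  have h3 : (Nat.card (Fix X) : ℤ) + 2 < charDegree X := by exact_mod_cast hf
  have h4 : (0 : ℤ) < (charDegree X : ℤ) - 2 - Nat.card (Fix X) := by linarith
  have h5 : (0 : ℤ) < b * ((charDegree X : ℤ) - 2 - Nat.card (Fix X)) := mul_pos (by linarith) h4
  nlinarith

end Cfsg.Agent.H667.Avg
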